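import Cfsg.Agent.H3.Action
import Cfsg.Agent.H3.Tate
import Cfsg.Agent.H3.Wielandt
import Cfsg.Agent.H2.SS3
import Cfsg.Agent.H26.SylNum

/-! Groups in which all subgroups of a fixed prime power order are strongly closed. -/

set_option autoImplicit false
set_option linter.unusedSectionVars false

namespace Cfsg.Agent.H3

open Subgroup
open scoped Pointwise commutatorElement

variable {G : Type*} [Group G] [Finite G] {p : ℕ} [hp : Fact p.Prime] {E H P Q R T U X Y : Subgroup G}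

theorem hs_norm (hP : IsPGroup p P)
    (h : ∀ g : G, E.map (MulAut.conj g).toMonoidHom ⊓ normalizer (E : Set G) ≤ E) (hE : E ≤ P) :
    P ≤ normalizer (E : Set G) := by
  by_contra hn
  obtain ⟨x, h1, h2⟩ := SetLike.exists_of_lt (lt_inf_normalizer_of_lt hP
    (lt_of_le_of_ne (inf_le_left (b := normalizer (E : Set G))) fun e => hn (inf_eq_left.1 e)))
  exact h2 ⟨h1.1, mem_normalizer_of_conj_mem fun a ha => h x ⟨mem_map_of_mem _ ha,
    ((mem_normalizer_iff.1 h1.2 a).1 ⟨hE ha, le_normalizer ha⟩).2⟩⟩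

theorem hs_sc (hP : IsPGroup p P)
    (h : ∀ g : G, E.map (MulAut.conj g).toMonoidHom ⊓ normalizer (E : Set G) ≤ E) (hE : E ≤ P) :
    IsStronglyClosed E P :=
  ⟨hE, fun _ ha g e => h g ⟨mem_map_of_mem _ ha, hs_norm hP h hE e⟩⟩

theorem exists_between (hT : IsPGroup p T) (h : H ≤ T) {d : ℕ} (h1 : Nat.card H ≤ p ^ d)
    (h2 : p ^ d ≤ Nat.card T) : ∃ E, H ≤ E ∧ E ≤ T ∧ Nat.card E = p ^ d := by
  obtain ⟨n, hn⟩ := IsPGroup.iff_card.1 (hT.to_le h)
  obtain ⟨m, hm⟩ := IsPGroup.iff_card.1 hT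
  obtain ⟨K, h3, h4⟩ := Sylow.exists_subgroup_card_pow_prime_le p (G := T) (m := d)
    (hm ▸ pow_dvd_pow p ((Nat.pow_le_pow_iff_right hp.out.one_lt).1 (hm ▸ h2))) (H.subgroupOf T)
    (by rw [Nat.card_congr (subgroupOfEquivOfLe h).toEquiv, hn])
    ((Nat.pow_le_pow_iff_right hp.out.one_lt).1 (hn ▸ h1))
  exact ⟨K.map T.subtype, fun x hx => ⟨⟨x, h hx⟩, h4 hx, rfl⟩, map_subtype_le K,
    by rw [card_subtype, h3]⟩

theorem relIndex_sup_zp {y : G} (hy : y ∈ normalizer (Y : Set G)) (h1 : y ∉ Y) (h2 : y ^ p ∈ Y) :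
    Y.relIndex (Y ⊔ zpowers y) = p := by
  have h3 := H1.relIndex_sup_zpowers (p := p) (N := Y.subgroupOf (normalizer (Y : Set G)))
    (y := ⟨y, hy⟩) h1 h2
  rwa [← relIndex_subgroupOf (sup_le le_normalizer (zpowers_le.2 hy)),
    subgroupOf_sup le_normalizer (zpowers_le.2 hy),
    show zpowers y = _ from (MonoidHom.map_zpowers (Subgroup.subtype _) ⟨y, hy⟩).symm,
    subgroupOf, subgroupOf, comap_map_eq_self_of_injective (subtype_injective _)]

/-- Sections of order `p` are central if `|G|` is prime to `p - 1`. -/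
theorem sec_trivial (hco : (Nat.card G).Coprime (p - 1)) (hi : Y.relIndex R = p)
    (h1 : R ≤ normalizer (Y : Set G)) (h2 : U ≤ normalizer (R : Set G))
    (h3 : U ≤ normalizer (Y : Set G)) : ⁅R, U⁆ ≤ Y := by
  set L := normalizer (Y : Set G)
  let f := QuotientGroup.mk' (Y.subgroupOf L)
  have h4 : Nat.card ((R.subgroupOf L).map f) = p := by
    rw [← relIndex_ker, QuotientGroup.ker_mk', relIndex_subgroupOf h1, hi]
  have h5 := relIndex_eq_one.1 (Nat.eq_one_of_dvd_coprimes hco ((relIndex_dvd_card _ _).trans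
    ((card_subgroup_dvd_card _).trans ((card_quotient_dvd_card _).trans (card_subgroup_dvd_card _))))
    (H26.relIndex_centralizer_dvd_of_card_prime hp.out h4))
  refine commutator_le.mpr fun x hx a ha => ?_
  have h6 := h5 (((map_mono ((comap_mono h2).trans (le_normalizer_comap L.subtype))).trans
    (le_normalizer_map f)) (mem_map_of_mem f (x := ⟨a, h3 ha⟩) ha)) _
    (mem_map_of_mem f (x := ⟨x, h1 hx⟩) hx)
  rw [← commutatorElement_eq_one_iff_mul_comm, ← map_commutatorElement] at h6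
  exact (QuotientGroup.eq_one_iff (N := Y.subgroupOf L) _).mp h6

/-- The hypothesis: all subgroups of order `p ^ d` (and 4) of `P` have the property `S`. -/
def AllS (p d : ℕ) (P : Subgroup G) (S : Subgroup G → Prop) : Prop :=
  ∀ E ≤ P, (Nat.card E = p ^ d ∨ (p ^ d = 2 ∧ Nat.card E = 4)) → S E

theorem AllS.exists_mem {d : ℕ} {S : Subgroup G → Prop} (h : AllS p d P S) (hP : IsPGroup p P)
    (h1 : R ≤ P) (h2 : p ^ d ≤ Nat.card R) {x : G} (hx : x ∈ R) (h3 : orderOf x ≤ p ^ d) :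
    ∃ E, S E ∧ x ∈ E ∧ E ≤ R := by
  obtain ⟨E, h4, h5, h6⟩ := exists_between (hP.to_le h1) (zpowers_le.2 hx)
    (by rwa [Nat.card_zpowers]) h2
  exact ⟨E, h E (h5.trans h1) (.inl h6), h4 (mem_zpowers x), h5⟩

theorem AllS.exists_mem' {d : ℕ} {S : Subgroup G → Prop} (h : AllS p d P S) (hP : IsPGroup p P)
    (hd : 1 ≤ d) (h1 : R ≤ P) (h2 : p ^ d ≤ Nat.card R) {x : G} (hx : x ∈ R)
    (h3 : x ^ p = 1 ∨ (p = 2 ∧ x ^ 4 = 1)) : ∃ E, S E ∧ x ∈ E ∧ E ≤ R := by
  by_cases h4 : orderOf x ≤ p ^ d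
  · exact h.exists_mem hP h1 h2 hx h4
  have h5 := Nat.pow_le_pow_right hp.out.pos hd
  rcases h3 with h3 | ⟨rfl, h3⟩
  · exact absurd ((orderOf_le_of_pow_eq_one hp.out.pos h3).trans ((pow_one p).ge.trans h5)) h4
  have h6 := orderOf_dvd_of_pow_eq_one h3
  have h7 := Nat.le_of_dvd (by norm_num) h6
  have h8 : orderOf x = 4 := by
    have : orderOf x ≠ 3 := fun e => by rw [e] at h6; omega
    omega
  refine ⟨_, h _ ((zpowers_le.2 hx).trans h1) (.inr ⟨?_, by rw [Nat.card_zpowers, h8]⟩),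
    mem_zpowers x, zpowers_le.2 hx⟩
  rcases d with _ | _ | d
  · omega
  · rfl
  · have := Nat.pow_le_pow_right two_pos (show 2 ≤ d + 1 + 1 by omega)
    omega

omit [Finite G] in
theorem orderOf_le_of_not {d : ℕ} (hP : IsPGroup p P) (h : ∀ x ∈ P, orderOf x ≠ p ^ d) {x : G}
    (hx : x ∈ P) : orderOf x ≤ p ^ d := by
  obtain ⟨n, hn⟩ := IsPGroup.iff_orderOf.1 hP ⟨x, hx⟩
  rw [orderOf_mk] at hn
  by_contra! h1
  have h2 := (Nat.pow_lt_pow_iff_right hp.out.one_lt).1 (hn ▸ h1)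
  refine h _ (pow_mem hx (p ^ (n - d))) ?_
  rw [orderOf_pow_of_dvd (pow_ne_zero _ hp.out.ne_zero) (hn ▸ pow_dvd_pow p (by omega)), hn,
    Nat.pow_div (by omega) hp.out.pos, Nat.sub_sub_self h2.le]

theorem le_card_of_relIndex {d : ℕ} (hP : IsPGroup p P) (hd : p ^ d < Nat.card P) (h1 : H ≤ P)
    (h2 : H.relIndex P = p) : p ^ d ≤ Nat.card H := by
  obtain ⟨n, hn⟩ := IsPGroup.iff_card.1 hP
  have h3 := card_eq_card_mul_relIndex h1
  have h4 := Nat.pow_le_pow_right hp.out.pos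
    (Nat.succ_le_of_lt ((Nat.pow_lt_pow_iff_right hp.out.one_lt).1 (hn ▸ hd)))
  rw [← hn, h3, h2, pow_succ] at h4
  exact Nat.le_of_mul_le_mul_right h4 hp.out.pos

theorem MinAct.not_le_sup {A B : Subgroup G} (h : MinAct p B A) (hco : (Nat.card G).Coprime (p - 1))
    {b : G} (hb : b ∈ B)
    (e : B ≤ B ⊓ (centralizer (B : Set G) ⊓ centralizer (A : Set G)) ⊔ zpowers b) : False := by
  have h1 : ¬ B ≤ B ⊓ (centralizer (B : Set G) ⊓ centralizer (A : Set G)) := fun e =>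
    h.not_le (le_centralizer_iff.1 (e.trans (inf_le_right.trans inf_le_right)))
  have h2 : B ≤ normalizer _ := (le_centralizer_iff.1 ((inf_le_right (a := B)).trans
    (inf_le_left (b := centralizer (A : Set G))))).trans (centralizer_le_normalizer _)
  have h3 : A ≤ normalizer _ := (le_centralizer_iff.1 ((inf_le_right (a := B)).trans
    (inf_le_right (a := centralizer (B : Set G))))).trans (centralizer_le_normalizer _)
  have h4 := relIndex_sup_zp (h2 hb) (fun e' => h1 (e.trans (sup_le le_rfl (zpowers_le.2 e'))))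
    (mem_inf.2 ⟨B.pow_mem hb p, h.pow_mem hb⟩)
  rw [← le_antisymm e (sup_le inf_le_left (zpowers_le.2 hb))] at h4
  exact h1 (h.eq_of_commutator_le inf_le_left h3 (sec_trivial hco h4 h2 h.le_normalizer h3)).ge

theorem pnil_of_allS (P : Sylow p G) (hco : (Nat.card G).Coprime (p - 1)) {d : ℕ} (hd : 1 ≤ d)
    (hlt : p ^ d < Nat.card P) (h : AllS p d P fun E => IsStronglyClosed E (P : Subgroup G)) :
    HasNormalPComplement p G := by
  by_cases h1 : ∀ x ∈ (P : Subgroup G), orderOf x ≠ p ^ d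
  · refine hasNormalPComplement_of_pResidual_le le_rfl (hasNormalPComplement_of_inf_le_frattini P _ ?_)
    refine (le_inf ((inf_comm _ _).le.trans (inf_pResidual_le_commutator P.2)) inf_le_right).trans
      (commutator_inf_sylow_le P fun x hx g hg => ⟨⟨_, mul_mem (inv_mem hx) hg⟩,
        H1.mem_frattini_iff.2 fun M' hM' => ?_, rfl⟩)
    obtain ⟨M, m1, m2, m3, m4, -⟩ := exists_index_p_ge P.2 (R := M'.map (Subgroup.subtype _))
      (lt_of_le_of_ne (map_subtype_le _) fun e => hM'.1 (top_le_iff.1 fun y _ => by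
        obtain ⟨z, hz, e'⟩ := e.ge y.2
        exact Subtype.ext e' ▸ hz))
    have m5 : IsStronglyClosed M (P : Subgroup G) := ⟨m2.le, fun y hy g hg => by
      obtain ⟨E, e1, e2, e3⟩ := h.exists_mem P.2 m2.le (le_card_of_relIndex P.2 hlt m2.le m4) hy
        (orderOf_le_of_not P.2 h1 (m2.le hy))
      exact e3 (e1.2 y e2 g hg)⟩
    have m6 : M.subgroupOf P = M' := by
      refine ((hM'.le_iff.1 fun y hy => m1 (mem_map_of_mem _ hy)).resolve_left fun e => ?_)
      exact m2.not_ge (subgroupOf_eq_top.1 e)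
    rw [← m6, mem_subgroupOf]
    refine alperin_fullyNormalized P (R := fun A g => ∀ x ∈ A, x⁻¹ * (g * x * g⁻¹) ∈ M)
      ⟨fun h1 h2 x hx => h2 x (h1 hx), fun h1 h2 x hx => ?_, fun h1 x hx => ?_⟩
      (fun A hA _ _ n hn x hx => ?_) (zpowers x) g (zpowers_le.2 hx) (conj_smul_le_iff.2 fun y hy => ?_)
      x (mem_zpowers x)
    · simpa [mul_assoc] using mul_mem (h1 x hx) (h2 _ (conj_mem_conj_smul.2 hx))
    · simpa [mul_assoc] using inv_mem (h1 _ (mem_conj_smul.1 hx))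
    · by_cases e : A ≤ M
      · exact mul_mem (inv_mem (e hx)) (e ((mem_normalizer_iff.1 hn x).1 hx))
      have h2 : (M ⊓ A).relIndex A = p := by
        rw [inf_relIndex_right, ← H1.relIndex_sup_of_le_normalizer (hA.trans m3)]
        refine (((Nat.dvd_prime hp.out).1 (m4 ▸ Dvd.intro _ (relIndex_mul_relIndex M (M ⊔ A) P
          le_sup_left (sup_le m2.le hA)))).resolve_left fun e' => e ?_)
        exact le_sup_right.trans (relIndex_eq_one.1 e')
      have h3 := normalizer_le_normalizer_inf_of_stronglyClosed hA m5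
      have h4 := sec_trivial hco h2 (le_normalizer.trans h3) (zpowers_le.2 hn) (zpowers_le.2 (h3 hn))
        (commutator_mem_commutator (inv_mem hx) (mem_zpowers n))
      simpa [commutatorElement_def, mul_assoc] using h4.1
    · obtain ⟨k, rfl⟩ := hy
      simpa using zpow_mem hg k
  push Not at h1
  obtain ⟨x, hx, h1⟩ := h1
  have h2 : Nat.card (zpowers x) = p ^ d := by rw [Nat.card_zpowers, h1]
  have hX := h _ (zpowers_le.2 hx) (.inl h2)
  by_contra hne
  obtain ⟨B, A, q, hB, -, -, -, -, -, hm⟩ := exists_minAct_of_not P hne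
  obtain ⟨b, hb, h3⟩ := SetLike.not_le_iff_exists.1 fun e => hm.not_le (le_centralizer_iff.1 e)
  obtain ⟨E, e1, e2, e3⟩ := h.exists_mem' P.2 hd (R := zpowers b ⊔ zpowers x) (sup_le (zpowers_le.2 (hB hb))
    hX.1) (h2 ▸ card_le_of_le le_sup_right) (mem_sup_left (mem_zpowers b)) (hm.pow_eq_one_or hb)
  have h4 : E ⊓ B = B := by_contra fun e => h3 (le_centralizer_iff.1 (hm.min _ (lt_of_le_of_ne inf_le_right e)
    (hm.le_normalizer.trans (normalizer_le_normalizer_inf_of_stronglyClosed hB e1))) ⟨e2, hb⟩)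
  have h5 := normalizer_le_normalizer_inf_of_stronglyClosed hB hX
  by_cases e : zpowers x ⊓ B = B
  · haveI : IsCyclic B := isCyclic_of_le (inf_eq_right.1 e)
    obtain ⟨⟨c, hc⟩, h6⟩ := IsCyclic.exists_generator (α := B)
    exact hm.not_le_sup hco hc fun y hy => mem_sup_right (let ⟨k, hk⟩ := h6 ⟨y, hy⟩;
      ⟨k, congrArg Subtype.val hk⟩)
  refine hm.not_le_sup hco hb fun y hy => ?_
  obtain ⟨u, hu, v, hv, rfl⟩ := (H10.mem_sup_iff_of_left_le_normalizer ((zpowers_le.2 (hB hb)).trans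
    fun g hg => mem_normalizer_of_conj_mem fun a ha => hX.2 a ha g
      (mul_mem (mul_mem hg (hX.1 ha)) (inv_mem hg)))).1 (e3 (h4.ge hy).1)
  have h6 := mem_inf.2 ⟨hv, (Subgroup.mul_mem_cancel_left _ (zpowers_le.2 hb hu)).1 hy⟩
  exact mul_mem (mem_sup_right hu) (mem_sup_left ⟨h6.2, hm.le_centralizer_of_lt
    (lt_of_le_of_ne inf_le_right e) (hm.le_normalizer.trans h5) (le_normalizer.trans h5) h6⟩)

theorem coprime_pred (hmin : ∀ q : ℕ, q.Prime → q ∣ Nat.card G → p ≤ q) :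
    (Nat.card G).Coprime (p - 1) := Nat.coprime_of_dvd fun q hq h1 h2 => by
  have := Nat.le_of_dvd (Nat.sub_pos_of_lt hp.out.one_lt) h2
  have := hmin q hq h1
  have := hp.out.pos
  omega

theorem pnil_of_cyclic (P : Sylow p G) (hco : (Nat.card G).Coprime (p - 1)) (h : IsCyclic P) :
    HasNormalPComplement p G := by
  by_contra hne
  obtain ⟨B, A, q, hB, -, -, -, -, -, hm⟩ := exists_minAct_of_not P hne
  haveI : IsCyclic B := isCyclic_of_le hB
  obtain ⟨⟨c, hc⟩, h6⟩ := IsCyclic.exists_generator (α := B)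
  exact hm.not_le_sup hco hc fun y hy => mem_sup_right (let ⟨k, hk⟩ := h6 ⟨y, hy⟩;
    ⟨k, congrArg Subtype.val hk⟩)

theorem allS_of (hP : IsPGroup p P) {S : Subgroup G → Prop} (h : ∃ D : Subgroup G, D ≤ P ∧ 1 < Nat.card D ∧
    Nat.card D < Nat.card P ∧ ∀ E : Subgroup G, E ≤ P →
      (Nat.card E = Nat.card D ∨ (Nat.card D = 2 ∧ Nat.card E = 4)) → S E) :
    ∃ d, 1 ≤ d ∧ p ^ d < Nat.card P ∧ AllS p d P S := by
  obtain ⟨D, h1, h2, h3, h4⟩ := h
  obtain ⟨d, hd⟩ := IsPGroup.iff_card.1 (hP.to_le h1)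
  rw [hd] at h2 h3 h4
  exact ⟨d, Nat.pos_of_ne_zero fun e => by simp [e] at h2, h3, h4⟩

theorem pnil_of_hsub (P : Sylow p G) (hco : (Nat.card G).Coprime (p - 1))
    (h : IsCyclic ↥(P : Subgroup G) ∨ ∃ D : Subgroup G, D ≤ (P : Subgroup G) ∧ 1 < Nat.card D ∧
      Nat.card D < Nat.card (P : Subgroup G) ∧ ∀ E : Subgroup G, E ≤ (P : Subgroup G) →
      (Nat.card E = Nat.card D ∨ (Nat.card D = 2 ∧ Nat.card E = 4)) →
        ∀ g : G, E.map (MulAut.conj g).toMonoidHom ⊓ normalizer (E : Set G) ≤ E) :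
    HasNormalPComplement p G := by
  refine h.elim (pnil_of_cyclic P hco) fun h => ?_
  obtain ⟨d, h1, h2, h3⟩ := allS_of P.2 h
  exact pnil_of_allS P hco h1 h2 fun E hE e => hs_sc P.2 (h3 E hE e) hE

end Cfsg.Agent.H3
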