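import Cfsg.Agent.H3.HSub

/-! Supersolvably embedded subgroups from normal subgroups of fixed order. -/

set_option autoImplicit false
set_option linter.unusedSectionVars false

namespace Cfsg.Agent.H3

open Subgroup Cfsg.Agent.H2
open scoped Pointwise commutatorElement

universe u

/-- The smallest normal subgroup with abelian quotient of exponent dividing `p - 1`. -/
def Dp (p : ℕ) (G : Type*) [Group G] : Subgroup G :=
  commutator G ⊔ closure (Set.range fun y : G => y ^ (p - 1))

variable {G : Type u} [Group G] [Finite G] {p : ℕ} [hp : Fact p.Prime] {A E H N P Q : Subgroup G}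

theorem map_Dp {G' : Type*} [Group G'] {f : G →* G'} (hf : Function.Surjective f) :
    (Dp p G).map f = Dp p G' := by
  rw [Dp, Dp, Subgroup.map_sup, _root_.commutator_def, map_commutator, map_top_of_surjective _ hf,
    MonoidHom.map_closure, ← Set.range_comp, ← hf.range_comp]
  simp only [Function.comp_def, map_pow]
  rfl

instance Dp_normal : (Dp p G).Normal := Normal.of_commutator_le G le_sup_left

theorem Dp_le_cent [N.Normal] (h : Nat.card N = p) : Dp p G ≤ centralizer (N : Set G) :=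
  haveI := isCyclic_of_card_prime' (h ▸ hp.out)
  sup_le (commutator_le_centralizer_of_isCyclic N) ((closure_le _).2 fun _ ⟨y, e⟩ =>
    e ▸ h ▸ pow_mem_centralizer_of_card_prime (h ▸ hp.out) y)

theorem comm_le_of_map [N.Normal] (h : A.map (QuotientGroup.mk' N) ≤
    centralizer (E.map (QuotientGroup.mk' N) : Set (G ⧸ N))) : ⁅E, A⁆ ≤ N := by
  rw [← QuotientGroup.ker_mk' N, ← Subgroup.map_eq_bot_iff, map_commutator, commutator_comm]
  exact commutator_eq_bot_iff_le_centralizer.2 h

theorem cent_of_ssub (G : Type u) [Group G] [Finite G] : ∀ E A : Subgroup G, SSub E → IsPGroup p E →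
    A ≤ Dp p G → (Nat.card A).Coprime p → A ≤ centralizer (E : Set G) := by
  refine card_induction (P := fun G _ _ => ∀ E A : Subgroup G, SSub E → IsPGroup p E →
    A ≤ Dp p G → (Nat.card A).Coprime p → A ≤ centralizer (E : Set G))
    (fun G _ _ ih E A h1 h2 h3 h4 => ?_) G
  by_cases h0 : E = ⊥
  · exact le_centralizer_iff.1 (h0.le.trans bot_le)
  obtain ⟨K, h5, h6, h7⟩ := h1.exists_normal_prime h0
  have h8 : Nat.card K = p := ((Nat.prime_dvd_prime_iff_eq hp.out h7).1
    ((h2.to_le h5).card_eq_or_dvd.resolve_left h7.one_lt.ne')).symm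
  have hs := QuotientGroup.mk'_surjective K
  exact H1.le_centralizer_of_commutator_le (h8 ▸ h4) (comm_le_of_map (ih _ (H1.card_quotient_lt
    (ne_bot_of_card_prime h7)) _ _ (h1.map hs) (h2.map _) (map_Dp (p := p) hs ▸ map_mono h3)
    (h4.coprime_dvd_left (card_map_dvd _ _)))) (h3.trans (Dp_le_cent h8))

theorem ssub_of_cent (G : Type u) [Group G] [Finite G] : ∀ Q : Subgroup G, Q.Normal → IsPGroup p Q →
    (∀ x ∈ Dp p G, (orderOf x).Coprime p → x ∈ centralizer (Q : Set G)) → SSub Q := by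
  refine card_induction (P := fun G _ _ => ∀ Q : Subgroup G, Q.Normal → IsPGroup p Q →
    (∀ x ∈ Dp p G, (orderOf x).Coprime p → x ∈ centralizer (Q : Set G)) → SSub Q)
    (fun G _ _ ih Q h1 h2 h3 => ?_) G
  by_cases h0 : Q = ⊥
  · exact h0 ▸ SSub.bot
  obtain ⟨N, hN, h4⟩ := exists_isMinNormal_le h1 h0
  have hn := hN.normal
  have h5 := h2.to_le h4
  obtain ⟨hc, r, hr, h6⟩ := hN.exists_prime_of_isSolvable (have := h5.isNilpotent; inferInstance)
  obtain rfl : p = r := by_contra fun e => hN.ne_bot (by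
    haveI := Fact.mk hr
    simpa using (IsPGroup.disjoint_of_ne p r e _ _ h5 (isPGroup_of_forall_pow_eq_one h6)))
  obtain ⟨S, hS⟩ := exists_sylowIn p (Dp p G)
  have h7 : Dp p G ≤ centralizer (N : Set G) := le_centralizer_iff.1 ((hN.le_of_inf_ne_bot _ fun e =>
    H1.inf_centralizer_ne_bot_of_isPGroup h5 hS.isPGroup (le_normalizer_of_normal) hN.ne_bot
      (eq_bot_iff.2 fun x hx => e.le ⟨hx.1, fun g hg => by
        obtain ⟨k, hk, s, hs, rfl⟩ := hS.exists_eq_mul h3 hg
        rw [mul_assoc, hx.2 s hs, ← mul_assoc, ← hk x (h4 hx.1), mul_assoc]⟩)))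
  haveI := hN.isCyclic_of_eigenvector (le_sup_left.trans h7) fun x =>
    exists_eigenvector h6 hN.ne_bot (le_normalizer_of_normal (mem_top x)) 0
      (h7 (mem_sup_right (subset_closure ⟨x, by simp⟩)))
  have hs := QuotientGroup.mk'_surjective N
  have h8 := SSub.comap hs (by rw [QuotientGroup.ker_mk']; exact SSub.of_isCyclic N)
    (ih _ (H1.card_quotient_lt hN.ne_bot) _ (h1.map _ hs) (h2.map _) fun x hx h9 => by
      rw [← map_Dp hs] at hx
      obtain ⟨x, hx, rfl⟩ := hx
      obtain ⟨k, hk⟩ := exists_pow_coprime_orderOf p x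
      refine zpowers_le.2 (?_ : _ ^ p ^ k ∈ _) (mem_zpowers_pow_iff.2 (h9.symm.pow_left k))
      rintro _ ⟨y, hy, rfl⟩
      rw [← map_pow, ← map_mul, ← map_mul, h3 _ (pow_mem hx _) hk y hy])
  rwa [comap_map_eq, QuotientGroup.ker_mk', sup_eq_left.2 h4] at h8

theorem ssub_of_allS [hn : Q.Normal] (hQ : IsPGroup p Q) {d : ℕ} (hd : 1 ≤ d)
    (hlt : p ^ d < Nat.card Q) (h : AllS p d Q Subgroup.Normal) : SSub Q := by
  refine ssub_of_cent G Q hn hQ fun a ha hc => zpowers_le.1 (by_contra fun hne => ?_)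
  rw [← Nat.card_zpowers] at hc
  by_cases h1 : ∀ x ∈ Q, orderOf x ≠ p ^ d
  · obtain ⟨M, m1, m2, -, m4, -⟩ := exists_index_p_ge hQ (R := Q ⊓ centralizer (zpowers a : Set G))
      (lt_of_le_of_ne inf_le_left fun e => hne (le_centralizer_iff.1 (inf_eq_left.1 e)))
    haveI : M.Normal := ⟨fun y hy g => by
      obtain ⟨E, e1, e2, e3⟩ := h.exists_mem hQ m2.le (le_card_of_relIndex hQ hlt m2.le m4) hy
        (orderOf_le_of_not hQ h1 (m2.le hy))
      exact e3 (e1.conj_mem y e2 g)⟩
    have hs := QuotientGroup.mk'_surjective M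
    haveI := hn.map _ hs
    obtain ⟨n, h2⟩ := IsPGroup.iff_card.1 hQ
    refine m2.not_ge ((H1.commutator_sup_centralizer le_normalizer_of_normal (h2 ▸ hc.pow_right n)
      (.inl inferInstance)).ge.trans (sup_le (comm_le_of_map ((map_mono (zpowers_le.2 ha)).trans
      ((map_Dp hs).le.trans (Dp_le_cent ?_)))) m1))
    rw [← relIndex_ker, QuotientGroup.ker_mk', m4]
  push Not at h1
  obtain ⟨x, hx, h1⟩ := h1
  have h2 : Nat.card (zpowers x) = p ^ d := by rw [Nat.card_zpowers, h1]
  haveI hX := h _ (zpowers_le.2 hx) (.inl h2)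
  obtain ⟨B, hB, hm⟩ := exists_minAct hQ hc le_normalizer_of_normal hne
  obtain ⟨b, hb, h3⟩ := SetLike.not_le_iff_exists.1 fun e => hm.not_le (le_centralizer_iff.1 e)
  have h4 := sup_le (zpowers_le.2 (hB hb)) (zpowers_le.2 hx)
  obtain ⟨E, e1, e2, e3⟩ := h.exists_mem' hQ hd h4 (h2 ▸ card_le_of_le le_sup_right)
    (mem_sup_left (mem_zpowers b)) (hm.pow_eq_one_or hb)
  have h5 : zpowers x ⊓ E ⊔ zpowers b = E := by
    rw [sup_comm, ← H10.dedekind (zpowers_le.2 e2) (.inl le_normalizer_of_normal), inf_eq_right.2 e3]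
  haveI : IsCyclic ↥(zpowers x ⊓ E) := isCyclic_of_le inf_le_left
  exact h3 (le_centralizer_iff.1 (cent_of_ssub G E _ (h5 ▸ SSub.step _ b (SSub.of_isCyclic _)
    (h5.symm ▸ e1)) (hQ.to_le (e3.trans h4)) (zpowers_le.2 ha) hc) e2)

theorem ssub_of_hsub (E : Subgroup G) : E.Normal → (∀ (p : ℕ), p.Prime → ∀ P : Subgroup G, P ≤ E →
    IsPGroup p P → ¬ p ∣ P.relIndex E → ¬ IsCyclic ↥P →
      ∃ D : Subgroup G, D ≤ P ∧ 1 < Nat.card D ∧ Nat.card D < Nat.card P ∧
        ∀ F : Subgroup G, F ≤ P → (Nat.card F = Nat.card D ∨ (Nat.card D = 2 ∧ Nat.card F = 4)) →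
          ∀ g : G, F.map (MulAut.conj g).toMonoidHom ⊓ normalizer (F : Set G) ≤ F) → SSub E := by
  induction E using WellFoundedLT.induction with
  | _ E ih =>
  intro hn h
  by_cases h0 : E = ⊥
  · exact h0 ▸ SSub.bot
  have hp := Nat.minFac_prime fun e => h0 (card_eq_one.1 e)
  have hd := Nat.minFac_dvd (Nat.card E)
  have hco := coprime_pred (hp := ⟨hp⟩) (G := E) fun q hq h1 => Nat.minFac_le_of_dvd hq.two_le h1
  generalize (Nat.card E).minFac = p at hp hd hco
  haveI := Fact.mk hp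
  obtain ⟨P'⟩ : Nonempty (Sylow p E) := inferInstance
  have hP := sylowIn_map_subtype P'
  set P := (P' : Subgroup E).map E.subtype with hPd
  have h1 : IsCyclic P ∨ ∃ d, 1 ≤ d ∧ p ^ d < Nat.card P ∧ AllS p d P fun F => IsStronglyClosed F P :=
    or_iff_not_imp_left.2 fun hc => by
      obtain ⟨d, h1, h2, h3⟩ := allS_of hP.isPGroup (h p hp P hP.le hP.isPGroup hP.not_dvd hc)
      exact ⟨d, h1, h2, fun F hF e => hs_sc hP.isPGroup (h3 F hF e) hF⟩
  have h2 : HasNormalPComplement p E := by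
    rcases h1 with h1 | ⟨d, h1, h2, h3⟩
    · exact pnil_of_cyclic P' hco ((equivMapOfInjective _ _ (subtype_injective E)).isCyclic.2 h1)
    refine pnil_of_allS P' hco h1 (by rwa [hPd, card_subtype] at h2) fun F hF e => ⟨hF, fun x hx g hg => ?_⟩
    obtain ⟨y, hy, e'⟩ := (h3 _ (map_mono hF) (by rwa [card_subtype])).2 _ (mem_map_of_mem _ hx) g
      (mem_map_of_mem _ hg)
    exact (Subtype.ext e' : y = g * x * g⁻¹) ▸ hy
  rw [hasNormalPComplement_iff_not_dvd, ← card_subtype] at h2
  have h3 : (pResidual p E).map E.subtype ⊔ P = E := by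
    rw [hPd, ← Subgroup.map_sup, pResidual_sup_sylow, ← MonoidHom.range_eq_map, range_subtype]
  obtain ⟨n, h4⟩ := exists_index_pResidual (p := p) (G := E)
  have h5 : ((pResidual p E).map E.subtype).relIndex E = p ^ n := by
    rw [relIndex, subgroupOf, comap_map_eq_self_of_injective (subtype_injective _), h4]
  haveI : ((pResidual p E).map E.subtype).Normal := inferInstance
  have h6 := map_subtype_le (pResidual p E)
  generalize (pResidual p E).map E.subtype = K at *
  have h7 := ih K (lt_of_le_of_ne h6 fun e => h2 (e ▸ hd)) this fun r hr R r1 r2 r3 r4 =>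
    h r hr R (r1.trans h6) r2 (fun e => by
      haveI := Fact.mk hr
      rw [← relIndex_mul_relIndex R K E r1 h6, h5] at e
      obtain rfl := (Nat.prime_dvd_prime_iff_eq hr hp).1
        (hr.dvd_of_dvd_pow ((hr.dvd_mul.1 e).resolve_left r3))
      rw [card_eq_one.1 (r2.card_eq_or_dvd.resolve_right fun e => h2 (e.trans (card_dvd_of_le r1)))] at r4
      exact r4 inferInstance) r4
  have h8 : SSub (P.subgroupOf (normalizer (P : Set G))) := by
    rcases h1 with h1 | ⟨d, h1, h2, h3⟩
    · haveI := (subgroupOfEquivOfLe (le_normalizer (H := P))).isCyclic.2 h1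
      exact SSub.of_isCyclic _
    refine ssub_of_allS hP.isPGroup.comap_subtype h1 (by
      rwa [Nat.card_congr (subgroupOfEquivOfLe (le_normalizer (H := P))).toEquiv])
      fun F hF e => ⟨fun x hx g => ?_⟩
    obtain ⟨y, hy, e'⟩ := (h3 _ (map_le_iff_le_comap.2 hF) (by rwa [card_subtype])).2 _
      (mem_map_of_mem _ hx) g ((mem_normalizer_iff.1 g.2 _).1 (hF hx))
    exact (Subtype.ext e' : y = g * x * g⁻¹) ▸ hy
  have hs := QuotientGroup.mk'_surjective K
  have h9 := SSub.comap hs (by rwa [QuotientGroup.ker_mk']) (h8.map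
    (f := (QuotientGroup.mk' K).comp (Subgroup.subtype _)) fun g => by
      obtain ⟨g, rfl⟩ := hs g
      obtain ⟨n, h1, m, hm, rfl⟩ := hP.frattini (le_normalizer_of_normal (mem_top g))
      obtain ⟨k, hk, s, hs, rfl⟩ := (H10.mem_sup_iff_of_right_le_normalizer le_normalizer_of_normal).1
        (h3.ge h1)
      exact ⟨⟨s * m, mul_mem (le_normalizer hs) hm⟩, by
        simp [(QuotientGroup.eq_one_iff k).2 hk]⟩)
  rwa [← Subgroup.map_map, subgroupOf_map_subtype, inf_eq_left.2 le_normalizer, comap_map_eq,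
    QuotientGroup.ker_mk', sup_comm, h3] at h9

end Cfsg.Agent.H3
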